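import Mathlib

/-!
Subdirect products of two symmetric groups containing the product of the alternating groups.
-/

set_option autoImplicit false
set_option linter.style.haveILetI false

namespace CfsgLib.AltSubcon

open Equiv Equiv.Perm

variable {M α β : Type*} [Group M] [Fintype α] [DecidableEq α] [Fintype β] [DecidableEq β]

/-- The four possible subdirect products. -/
theorem subdirect_cases (F : M →* Perm α) (P : M →* Perm β) (hinj : ∀ m, F m = 1 → P m = 1 → m = 1)
    (hA : ∀ a : Perm α, Perm.sign a = 1 → ∃ m, F m = a ∧ P m = 1)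
    (hB : ∀ b : Perm β, Perm.sign b = 1 → ∃ m, F m = 1 ∧ P m = b) :
    ((∀ m, Perm.sign (F m) = 1) → (∀ m, Perm.sign (P m) = 1) →
      Nonempty (M ≃* alternatingGroup α × alternatingGroup β)) ∧
    ((∃ m, Perm.sign (F m) = -1) → (∃ m, Perm.sign (P m) = -1) →
      Nonempty (M ≃* Perm α × Perm β) ∨
      Nonempty (M ≃* ((Perm.sign.comp (MonoidHom.fst (Perm α) (Perm β))) *
        (Perm.sign.comp (MonoidHom.snd (Perm α) (Perm β)))).ker)) := by
  set Φ := F.prod P with hΦ
  have hΦinj : Function.Injective Φ := (injective_iff_map_eq_one Φ).2 fun m hm => by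
    rw [hΦ, MonoidHom.prod_apply, Prod.mk_eq_one] at hm
    exact hinj m hm.1 hm.2
  have hev : ∀ (x : Perm α) (y : Perm β), Perm.sign x = 1 → Perm.sign y = 1 → ∃ m, Φ m = (x, y) := by
    intro x y hx hy
    obtain ⟨m, hm1, hm2⟩ := hA x hx
    obtain ⟨m', hm1', hm2'⟩ := hB y hy
    exact ⟨m * m', by rw [hΦ, MonoidHom.prod_apply, map_mul, map_mul, hm1, hm1', hm2, hm2', mul_one, one_mul]⟩
  have hcor : ∀ (m : M) (x : Perm α) (y : Perm β), Perm.sign (F m) = Perm.sign x → Perm.sign (P m) = Perm.sign y →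
      ∃ m', Φ m' = (x, y) := by
    intro m x y hx hy
    obtain ⟨m', hm'⟩ := hev ((F m)⁻¹ * x) ((P m)⁻¹ * y) (by rw [map_mul, map_inv, hx, inv_mul_cancel])
      (by rw [map_mul, map_inv, hy, inv_mul_cancel])
    refine ⟨m * m', ?_⟩
    rw [map_mul, hm', hΦ, MonoidHom.prod_apply, Prod.mk_mul_mk, mul_inv_cancel_left, mul_inv_cancel_left]
  constructor
  · intro hF hP
    let Ψ : M →* alternatingGroup α × alternatingGroup β :=
      (F.codRestrict _ fun m => mem_alternatingGroup.2 (hF m)).prod
        (P.codRestrict _ fun m => mem_alternatingGroup.2 (hP m))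
    refine ⟨MulEquiv.ofBijective Ψ ⟨fun m m' h => hΦinj ?_, ?_⟩⟩
    · have h1 := congrArg (fun z => ((z.1 : Perm α), (z.2 : Perm β))) h
      exact h1
    · rintro ⟨⟨x, hx⟩, ⟨y, hy⟩⟩
      obtain ⟨m, hm⟩ := hev x y (mem_alternatingGroup.1 hx) (mem_alternatingGroup.1 hy)
      exact ⟨m, Prod.ext (Subtype.ext (congrArg Prod.fst hm)) (Subtype.ext (congrArg Prod.snd hm))⟩
  · rintro ⟨a, ha⟩ ⟨b, hb⟩
    by_cases hd : ∀ m, Perm.sign (F m) = Perm.sign (P m)
    · right
      refine ⟨MulEquiv.ofBijective (Φ.codRestrict _ fun m => ?_) ⟨fun m m' h => hΦinj (congrArg Subtype.val h), ?_⟩⟩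
      · rw [MonoidHom.mem_ker]
        show Perm.sign (F m) * Perm.sign (P m) = 1
        rw [hd m, Int.units_mul_self]
      · rintro ⟨⟨x, y⟩, hxy⟩
        rw [MonoidHom.mem_ker] at hxy
        change Perm.sign x * Perm.sign y = 1 at hxy
        have e : Perm.sign y = Perm.sign x := by
          have := congrArg (Perm.sign x * ·) hxy
          simp only [← mul_assoc, Int.units_mul_self, one_mul, mul_one] at this
          exact this
        rcases Int.units_eq_one_or (Perm.sign x) with h | h
        · obtain ⟨m, hm⟩ := hev x y h (e.trans h)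
          exact ⟨m, Subtype.ext hm⟩
        · obtain ⟨m, hm⟩ := hcor a x y (ha.trans h.symm) (by rw [← hd a, ha, e, h])
          exact ⟨m, Subtype.ext hm⟩
    · left
      push Not at hd
      obtain ⟨c, hc⟩ := hd
      obtain ⟨m1, h1, h2⟩ : ∃ m, Perm.sign (F m) = 1 ∧ Perm.sign (P m) = -1 := by
        rcases Int.units_eq_one_or (Perm.sign (F b)) with h | h
        · exact ⟨b, h, hb⟩
        rcases Int.units_eq_one_or (Perm.sign (F c)) with h' | h' <;>
          rcases Int.units_eq_one_or (Perm.sign (P c)) with h'' | h''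
        · exact absurd (h'.trans h''.symm) hc
        · exact ⟨c, h', h''⟩
        · exact ⟨b * c, by rw [map_mul, map_mul, h, h']; rfl, by rw [map_mul, map_mul, hb, h'']; rfl⟩
        · exact absurd (h'.trans h''.symm) hc
      obtain ⟨m2, h3, h4⟩ : ∃ m, Perm.sign (F m) = -1 ∧ Perm.sign (P m) = 1 := by
        rcases Int.units_eq_one_or (Perm.sign (P a)) with h | h
        · exact ⟨a, ha, h⟩
        · exact ⟨a * m1, by rw [map_mul, map_mul, ha, h1]; rfl, by rw [map_mul, map_mul, h, h2]; rfl⟩
      refine ⟨MulEquiv.ofBijective Φ ⟨hΦinj, ?_⟩⟩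
      rintro ⟨x, y⟩
      rcases Int.units_eq_one_or (Perm.sign x) with hx | hx <;>
        rcases Int.units_eq_one_or (Perm.sign y) with hy | hy
      · exact hev x y hx hy
      · exact hcor m1 x y (h1.trans hx.symm) (h2.trans hy.symm)
      · exact hcor m2 x y (h3.trans hx.symm) (h4.trans hy.symm)
      · exact hcor (m1 * m2) x y (by rw [map_mul, map_mul, h1, h3, hx]; rfl) (by rw [map_mul, map_mul, h2, h4, hy]; rfl)

end CfsgLib.AltSubcon
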