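import Mathlib

/-!
Facts about subgroups of a symmetric group in relation to the alternating group.
-/

set_option autoImplicit false
set_option linter.style.haveILetI false

namespace CfsgLib.AltSubcon

open Equiv Equiv.Perm

variable {β : Type*} [Fintype β] [DecidableEq β]

theorem alt_not_comm (h : 4 ≤ Nat.card β) :
    ¬ ∀ a ∈ alternatingGroup β, ∀ b ∈ alternatingGroup β, a * b = b * a := by
  intro hc
  have hz := alternatingGroup.center_eq_bot h
  have htop : Subgroup.center (alternatingGroup β) = ⊤ := eq_top_iff.2 fun a _ =>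
    Subgroup.mem_center_iff.2 fun b => Subtype.ext (hc _ b.2 _ a.2)
  haveI : Nontrivial (alternatingGroup β) := by
    refine alternatingGroup.nontrivial_of_three_le_card (α := β) ?_
    omega
  exact top_ne_bot (htop ▸ hz)

theorem centralizer_alt (h5 : 5 ≤ Nat.card β) :
    Subgroup.centralizer (alternatingGroup β : Set (Perm β)) = ⊥ := by
  by_contra hne
  have hle : alternatingGroup β ≤ Subgroup.centralizer (alternatingGroup β : Set (Perm β)) :=
    alternatingGroup_le_of_normal h5 ((Subgroup.nontrivial_iff_ne_bot _).2 hne)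
  exact alt_not_comm (by omega) fun a ha b hb => (Subgroup.mem_centralizer_iff.1 (hle hb) a ha)

/-- A non-trivial subgroup normalised by the alternating group contains it. -/
theorem alt_le_of_normalized (h5 : 5 ≤ Nat.card β) {Z : Subgroup (Perm β)} (hZ : Z ≠ ⊥)
    (hn : alternatingGroup β ≤ Subgroup.normalizer (Z : Set (Perm β))) : alternatingGroup β ≤ Z := by
  haveI := alternatingGroup.isSimpleGroup h5
  haveI : (Z.subgroupOf (alternatingGroup β)).Normal :=
    ⟨fun z hz a => (Subgroup.mem_normalizer_iff.1 (hn a.2) _).1 hz⟩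
  rcases IsSimpleGroup.eq_bot_or_eq_top_of_normal (Z.subgroupOf (alternatingGroup β)) inferInstance with h | h
  · refine absurd (eq_bot_iff.2 fun z hz => ?_) hZ
    have hc : z ∈ Subgroup.centralizer (alternatingGroup β : Set (Perm β)) := by
      rw [Subgroup.mem_centralizer_iff]
      intro a ha
      have h1 : a * z * a⁻¹ * z⁻¹ ∈ Z := mul_mem ((Subgroup.mem_normalizer_iff.1 (hn ha) z).1 hz) (inv_mem hz)
      have h2 : a * z * a⁻¹ * z⁻¹ ∈ alternatingGroup β := by
        rw [mem_alternatingGroup, map_mul, map_mul, map_mul, map_inv, map_inv, mem_alternatingGroup.1 ha]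
        simp
      have h3 : (⟨_, h2⟩ : alternatingGroup β) ∈ Z.subgroupOf (alternatingGroup β) := h1
      rw [h, Subgroup.mem_bot, Subtype.ext_iff] at h3
      change a * z * a⁻¹ * z⁻¹ = 1 at h3
      rw [mul_inv_eq_one, mul_inv_eq_iff_eq_mul] at h3
      exact h3
    rwa [centralizer_alt h5] at hc
  · exact Subgroup.subgroupOf_eq_top.1 h

theorem perfect_le_alt {R : Subgroup (Perm β)} (hR : ⁅R, R⁆ = R) : R ≤ alternatingGroup β := by
  rw [← hR, Subgroup.commutator_le]
  intro a _ b _
  rw [mem_alternatingGroup, map_commutatorElement]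
  exact commutatorElement_eq_one_iff_mul_comm.2 (mul_comm _ _)

theorem alt_le_commutator (h5 : 5 ≤ Nat.card β) :
    alternatingGroup β ≤ ⁅alternatingGroup β, alternatingGroup β⁆ := by
  refine alt_le_of_normalized h5 ?_ ?_
  · intro h
    refine alt_not_comm (β := β) (by omega) fun a ha b hb => ?_
    have := Subgroup.commutator_mem_commutator ha hb
    rw [h, Subgroup.mem_bot] at this
    exact commutatorElement_eq_one_iff_mul_comm.1 this
  · intro a ha
    haveI : (alternatingGroup β).Normal := alternatingGroup.normal
    haveI : (⁅alternatingGroup β, alternatingGroup β⁆).Normal := inferInstance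
    rw [Subgroup.normalizer_eq_top]
    trivial

theorem alt_not_isSolvable (h5 : 5 ≤ Nat.card β) {Z : Subgroup (Perm β)} (hZ : alternatingGroup β ≤ Z) :
    ¬ Group.IsSolvable Z := fun hs => by
  haveI := hs
  haveI : Group.IsSolvable (alternatingGroup β) :=
    Group.isSolvable_of_isSolvable_injective (Subgroup.inclusion_injective hZ)
  haveI := alternatingGroup.isSimpleGroup h5
  exact alt_not_comm (β := β) (by omega) fun a ha b hb =>
    congrArg Subtype.val (IsSimpleGroup.comm_iff_isSolvable.2 inferInstance (⟨a, ha⟩ : alternatingGroup β) ⟨b, hb⟩)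

/-- A subgroup of small relative index contains the alternating group. -/
theorem alt_le_of_relIndex (h5 : 5 ≤ Nat.card β) {Z : Subgroup (Perm β)}
    (h : Z.relIndex (alternatingGroup β) < Nat.card β) : alternatingGroup β ≤ Z := by
  haveI := alternatingGroup.isSimpleGroup h5
  set Z' := Z.subgroupOf (alternatingGroup β) with hZ'
  rcases IsSimpleGroup.eq_bot_or_eq_top_of_normal Z'.normalCore inferInstance with hc | hc
  · exfalso
    have hinj : Function.Injective (MulAction.toPermHom (alternatingGroup β) ((alternatingGroup β) ⧸ Z')) := by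
      rw [← MonoidHom.ker_eq_bot_iff, ← Subgroup.normalCore_eq_ker, hc]
    have hle := Nat.card_le_card_of_injective _ hinj
    rw [Nat.card_perm] at hle
    have h2 : 2 * Nat.card (alternatingGroup β) = (Nat.card β).factorial := by
      haveI : Nontrivial β := by rw [← Finite.one_lt_card_iff_nontrivial]; omega
      rw [← Nat.card_perm (α := β)]
      exact two_mul_nat_card_alternatingGroup
    have h3 : (Z'.index).factorial ≤ (Nat.card β - 1).factorial := Nat.factorial_le (by
      have : Z'.index < Nat.card β := h
      omega)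
    have h4 : (Nat.card β).factorial = Nat.card β * (Nat.card β - 1).factorial :=
      (Nat.mul_factorial_pred (by omega)).symm
    have h5' : 5 * (Nat.card β - 1).factorial ≤ Nat.card β * (Nat.card β - 1).factorial :=
      Nat.mul_le_mul_right _ h5
    have h6 := Nat.factorial_pos (Nat.card β - 1)
    change _ ≤ Z'.index.factorial at hle
    omega
  · exact Subgroup.subgroupOf_eq_top.1 (eq_top_iff.2 (hc ▸ Subgroup.normalCore_le Z'))

theorem alt_le_of_card {Z : Subgroup (Perm β)}
    (hZ : Nat.card (Perm β) ≤ 2 * Nat.card Z) : alternatingGroup β ≤ Z := by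
  refine alternatingGroup_le_of_index_le_two ?_
  have h1 := Z.card_mul_index
  have h2 : 0 < Nat.card Z := Nat.card_pos
  by_contra h3
  have : Nat.card Z * 3 ≤ Nat.card Z * Z.index := Nat.mul_le_mul_left _ (by omega)
  omega

end CfsgLib.AltSubcon
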