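import Mathlib

/-!
Conjugates, products and commutators of subgroups normalised by a common subgroup.
-/

set_option autoImplicit false
set_option linter.style.haveILetI false

namespace CfsgLib.AltSubcon

open Subgroup

variable {G : Type*} [Group G]

/-- The conjugate of a subgroup. -/
def cj (g : G) (X : Subgroup G) : Subgroup G := X.map (MulAut.conj g).toMonoidHom

theorem mem_cj {g : G} {X : Subgroup G} {x : G} : x ∈ cj g X ↔ g⁻¹ * x * g ∈ X := by
  constructor
  · rintro ⟨y, hy, rfl⟩
    simpa [mul_assoc] using hy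
  · exact fun h => ⟨_, h, by simp [mul_assoc]⟩

theorem cj_cj (g h : G) (X : Subgroup G) : cj g (cj h X) = cj (g * h) X := by
  ext x; simp [mem_cj, mul_assoc]

@[simp] theorem cj_one (X : Subgroup G) : cj 1 X = X := by
  ext x; simp [mem_cj]

theorem cj_inv_cj (g : G) (X : Subgroup G) : cj g⁻¹ (cj g X) = X := by rw [cj_cj, inv_mul_cancel, cj_one]

theorem cj_cj_inv (g : G) (X : Subgroup G) : cj g (cj g⁻¹ X) = X := by rw [cj_cj, mul_inv_cancel, cj_one]

theorem cj_mono (g : G) {X Y : Subgroup G} (h : X ≤ Y) : cj g X ≤ cj g Y := map_mono h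

theorem cj_le_iff {g : G} {X Y : Subgroup G} : cj g X ≤ Y ↔ X ≤ cj g⁻¹ Y :=
  ⟨fun h => (cj_inv_cj g X).ge.trans (cj_mono _ h), fun h => (cj_mono g h).trans (cj_cj_inv g Y).le⟩

theorem cj_inf (g : G) (X Y : Subgroup G) : cj g (X ⊓ Y) = cj g X ⊓ cj g Y :=
  map_inf _ _ _ (MulAut.conj g).injective

theorem cj_sup (g : G) (X Y : Subgroup G) : cj g (X ⊔ Y) = cj g X ⊔ cj g Y := map_sup _ _ _

theorem cj_commutator (g : G) (X Y : Subgroup G) : cj g ⁅X, Y⁆ = ⁅cj g X, cj g Y⁆ := map_commutator _ _ _

theorem card_cj (g : G) (X : Subgroup G) : Nat.card (cj g X) = Nat.card X :=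
  card_map_of_injective (MulAut.conj g).injective

theorem cj_mem_normalizer {g : G} {X : Subgroup G} (h : g ∈ normalizer (X : Set G)) : cj g X = X := by
  ext x
  rw [mem_cj, (mem_normalizer_iff.1 h (g⁻¹ * x * g))]
  simp [mul_assoc]

theorem mem_normalizer_of_cj {g : G} {X : Subgroup G} (h : cj g X = X) : g ∈ normalizer (X : Set G) := by
  rw [mem_normalizer_iff]
  intro x
  conv_rhs => rw [← h, mem_cj]
  simp [mul_assoc]

theorem mem_normalizer_of_cj_le [Finite G] {g : G} {X : Subgroup G} (h : cj g X ≤ X) :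
    g ∈ normalizer (X : Set G) :=
  mem_normalizer_of_cj (eq_of_le_of_card_ge h (card_cj g X).ge)

theorem le_normalizer_cj {g : G} {X Y : Subgroup G} (h : X ≤ normalizer (Y : Set G)) :
    cj g X ≤ normalizer (cj g Y : Set G) :=
  (map_mono h).trans (le_normalizer_map _)

theorem le_normalizer_inf {X A B : Subgroup G} (hA : X ≤ normalizer (A : Set G))
    (hB : X ≤ normalizer (B : Set G)) : X ≤ normalizer ((A ⊓ B : Subgroup G) : Set G) := fun x hx => by
  rw [mem_normalizer_iff]
  intro y
  rw [mem_inf, mem_inf, ← mem_normalizer_iff.1 (hA hx), ← mem_normalizer_iff.1 (hB hx)]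

theorem commutator_sup_le {K W U V : Subgroup G} (hW : W ≤ K) (hU : U ≤ K) (hV : V ≤ K)
    (nW : K ≤ normalizer (W : Set G)) (nU : K ≤ normalizer (U : Set G)) (nV : K ≤ normalizer (V : Set G)) :
    ⁅W ⊔ U, W ⊔ V⁆ ≤ W ⊔ ⁅U, V⁆ := by
  haveI hW' : (W.subgroupOf K).Normal := (normal_subgroupOf_iff_le_normalizer hW).2 nW
  haveI : (U.subgroupOf K).Normal := (normal_subgroupOf_iff_le_normalizer hU).2 nU
  haveI : (V.subgroupOf K).Normal := (normal_subgroupOf_iff_le_normalizer hV).2 nV
  set W' := W.subgroupOf K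
  set U' := U.subgroupOf K
  set V' := V.subgroupOf K
  set Z := W' ⊔ ⁅U', V'⁆
  have h1 : W'.map (QuotientGroup.mk' Z) = ⊥ :=
    (Subgroup.map_eq_bot_iff _).2 (by rw [QuotientGroup.ker_mk']; exact le_sup_left)
  have key : ⁅W' ⊔ U', W' ⊔ V'⁆ ≤ Z := by
    rw [← QuotientGroup.ker_mk' Z, ← Subgroup.map_eq_bot_iff, Subgroup.map_commutator, Subgroup.map_sup, Subgroup.map_sup, h1, bot_sup_eq,
      bot_sup_eq, ← Subgroup.map_commutator, Subgroup.map_eq_bot_iff, QuotientGroup.ker_mk']
    exact le_sup_right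
  have := map_mono (f := K.subtype) key
  rw [Subgroup.map_commutator, Subgroup.map_sup, Subgroup.map_sup, map_subgroupOf_eq_of_le hW, map_subgroupOf_eq_of_le hU,
    map_subgroupOf_eq_of_le hV, Subgroup.map_sup, Subgroup.map_commutator, map_subgroupOf_eq_of_le hW,
    map_subgroupOf_eq_of_le hU, map_subgroupOf_eq_of_le hV] at this
  exact this

/-- A perfect subgroup in two products lies in the product with the intersection. -/
theorem le_sup_inf {K R W U V : Subgroup G} (hR : ⁅R, R⁆ = R) (hW : W ≤ K) (hU : U ≤ K) (hV : V ≤ K)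
    (nW : K ≤ normalizer (W : Set G)) (nU : K ≤ normalizer (U : Set G)) (nV : K ≤ normalizer (V : Set G))
    (h1 : R ≤ W ⊔ U) (h2 : R ≤ W ⊔ V) : R ≤ W ⊔ U ⊓ V := by
  rw [← hR]
  refine (commutator_mono h1 h2).trans ((commutator_sup_le hW hU hV nW nU nV).trans (sup_le_sup_left ?_ _))
  rw [commutator_le]
  intro u hu v hv
  rw [commutatorElement_def]
  refine mem_inf.2 ⟨?_, ?_⟩
  · rw [mul_assoc, mul_assoc, ← mul_assoc v]
    exact mul_mem hu ((mem_normalizer_iff.1 (nU (hV hv)) _).1 (inv_mem hu))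
  · exact mul_mem ((mem_normalizer_iff.1 (nV (hU hu)) _).1 hv) (inv_mem hv)

theorem le_sup_inf_finset {ι : Type*} {K R W : Subgroup G} (hR : ⁅R, R⁆ = R) (hRK : R ≤ K) (hW : W ≤ K)
    (nW : K ≤ normalizer (W : Set G)) (U : ι → Subgroup G) (nU : ∀ i, K ≤ normalizer (U i : Set G))
    (s : Finset ι) (h : ∀ i ∈ s, R ≤ W ⊔ K ⊓ U i) : R ≤ W ⊔ K ⊓ ⨅ i ∈ s, U i := by
  classical
  induction s using Finset.induction_on with
  | empty => simpa using hRK.trans le_sup_right
  | insert a t ha ih =>
    have nI : ∀ t : Finset ι, K ≤ normalizer ((⨅ i ∈ t, U i : Subgroup G) : Set G) := fun t x hx => by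
      rw [mem_normalizer_iff]
      intro y
      simp only [mem_iInf]
      exact forall_congr' fun i => forall_congr' fun _ => mem_normalizer_iff.1 (nU i hx) y
    have := le_sup_inf hR hW (inf_le_left : K ⊓ U a ≤ K) (inf_le_left : K ⊓ (⨅ i ∈ t, U i) ≤ K) nW
      (le_normalizer_inf le_normalizer (nU a)) (le_normalizer_inf le_normalizer (nI t))
      (h a (Finset.mem_insert_self _ _)) (ih fun i hi => h i (Finset.mem_insert_of_mem hi))
    refine this.trans (sup_le_sup_left ?_ _)
    rw [Finset.iInf_insert]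
    exact le_inf (inf_le_left.trans inf_le_left)
      (le_inf (inf_le_left.trans inf_le_right) (inf_le_right.trans inf_le_right))

/-- A perfect subgroup in a product with a solvable normal subgroup. -/
theorem le_of_sup_solvable [Finite G] {K R W : Subgroup G} (hR : ⁅R, R⁆ = R) (hW : W ≤ K)
    (nW : K ≤ normalizer (W : Set G)) : ∀ T : Subgroup G, T ≤ K → K ≤ normalizer (T : Set G) →
      Group.IsSolvable T → R ≤ W ⊔ T → R ≤ W := by
  intro T
  induction T using WellFoundedLT.induction with
  | _ T ih =>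
    intro hT nT hs hle
    haveI := hs
    by_cases hb : T = ⊥
    · simpa [hb] using hle
    have hlt : ⁅T, T⁆ < T := by
      haveI : Nontrivial T := (T.nontrivial_iff_ne_bot).2 hb
      have h := Group.IsSolvable.commutator_lt_top_of_nontrivial (G := T)
      have e : (commutator T).map T.subtype = ⁅T, T⁆ := by
        rw [_root_.commutator_def, map_commutator, ← MonoidHom.range_eq_map, range_subtype]
      rw [← e]
      calc (commutator T).map T.subtype < (⊤ : Subgroup T).map T.subtype :=
            map_lt_map_iff_of_injective T.subtype_injective |>.2 h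
        _ = T := by rw [← MonoidHom.range_eq_map, range_subtype]
    refine ih _ hlt (hlt.le.trans hT) ?_ (Group.isSolvable_of_isSolvable_injective (inclusion_injective hlt.le)) ?_
    · intro x hx
      refine mem_normalizer_of_cj ?_
      rw [cj_commutator, cj_mem_normalizer (nT hx)]
    · rw [← hR]
      exact (commutator_mono hle hle).trans (commutator_sup_le hW hT hT nW nT nT)

end CfsgLib.AltSubcon
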